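import Cfsg.Agent.H470.EPO.OwnBig

/-!
# Own characteristic, rank at least two, `q > 2`: the table of families (helper284, for S3499)

* `BigL p L` : `L` has a filtered root group datum of characteristic `p`, rank `≥ 2`, all simple root groups of order `≥ 3`;
* `bigL_PSL`, ... : all families;
* `BigL.kill` : `EPT A Γ`, `HasSoc A L`, `HasFilt p Q` is impossible (`own_filtC` of helper470 and helper737);
* `own_PSL`, ..., `own_exc` : the situation `Big`; `ownPSL_of`, ... : what remains of the targets `OwnPSL`, ....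
-/

set_option autoImplicit false
set_option linter.unusedSectionVars false

namespace Cfsg.Agent.H284.Own

open CoxeterSystem Cfsg.Agent.ChevalleyStructure.CoxeterGeom Cfsg.Agent.Tits.Roots Cfsg.Agent.Tits.Core
  Cfsg.Agent.Nodes.BNOf Cfsg.Agent.KFacts.RgdFilt Cfsg.Agent.H419.EP Cfsg.Agent.H284.Pan Cfsg.Agent.H470.EPO
open scoped MatrixGroups

/-- `L` has a filtered root group datum of characteristic `p`, rank `≥ 2`, all simple root groups of order `≥ 3` -/
def BigL (p : ℕ) (L : Type*) [Group L] : Prop :=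
  ∃ (l : ℕ) (M : CoxeterMatrix (Fin l)), 2 ≤ l ∧ FiltC p 3 M L

theorem BigL.of_equiv {p : ℕ} {L L' : Type*} [Group L] [Group L'] [Finite L] (e : L ≃* L') (h : BigL p L) : BigL p L' := by
  obtain ⟨l, M, hl, hF⟩ := h
  exact ⟨l, M, hl, hF.of_equiv e⟩

/-- a simple group with such a datum is not commutative -/
theorem BigL.nab {p : ℕ} {L : Type*} [Group L] [IsSimpleGroup L] (h : BigL p L) : ∃ a b : L, a * b ≠ b * a := by
  obtain ⟨l, M, hl, A, hC, T, n, X, R, F, -, hX, -, hc⟩ := h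
  by_contra hcon
  push Not at hcon
  have i : Fin l := ⟨0, by omega⟩
  have hn : (X (sr i)).Normal := ⟨fun x hx g => by
    have : g * x * g⁻¹ = x := by rw [hcon g x, mul_inv_cancel_right]
    rwa [this]⟩
  rcases hn.eq_bot_or_eq_top with h1 | h1
  · have h2 := hc i
    rw [h1, Subgroup.card_bot] at h2
    omega
  · apply R.notp i
    have h2 : X (sr i) ⊔ X (-sr i) = X (sr i) := by rw [h1, top_sup_eq]
    rw [h2]
    exact R.pgrp i

/-- **Own characteristic.** -/
theorem BigL.kill {p : ℕ} [Fact p.Prime] {L : Type} [Group L] [Finite L] [IsSimpleGroup L] (hb : BigL p L) {Q : Type*}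
    [Group Q] [Finite Q] [IsSimpleGroup Q] (hQ : HasFilt p Q) {A : Subgroup Q} {Γ : Subgroup (MulAut Q)}
    (h : H284.EPT A Γ) (hs : HasSoc A L) : False := by
  have hn := hb.nab
  obtain ⟨l, M, hl, hF⟩ := hb
  exact own_filtC hl hQ h hn hs hF

/-! ### the families -/

section Families

variable {p : ℕ} [Fact p.Prime]

theorem bigL_PSL (K : Type*) [Field K] [Fintype K] [CharP K p] {d : ℕ} (hd : 3 ≤ d) (hK : 3 ≤ Fintype.card K) :
    BigL p (Matrix.ProjectiveSpecialLinearGroup (Fin d) K) := by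
  obtain ⟨n, rfl⟩ : ∃ n, d = n + 1 := ⟨d - 1, by omega⟩
  exact ⟨n, _, by omega, (filtC_PSL n).mono (by rwa [Nat.card_eq_fintype_card])⟩

theorem bigL_PSp (K : Type*) [Field K] [Fintype K] [CharP K p] {d : ℕ} (hd : 2 ≤ d) (hK : 3 ≤ Fintype.card K) :
    BigL p (Cfsg.PSp d K) :=
  ⟨d, _, hd, (filtC_PSp (by omega)).mono (by rwa [Nat.card_eq_fintype_card])⟩

theorem bigL_PSU (K : Type*) [Field K] [Fintype K] [CharP K p] {d q : ℕ} (hF : Fintype.card K = q ^ 2) (hd : 4 ≤ d)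
    (hq : 3 ≤ q) : BigL p (Cfsg.PSU d K q) := by
  obtain ⟨m, hm, hdm, h⟩ := filtC_PSU (p := p) hF (N := d) (by omega)
  exact ⟨m, _, by omega, h.mono hq⟩

/-- odd dimension: all root groups have order `q ^ 2` or `q ^ 3`, so `q = 2` is allowed -/
theorem bigL_PSU_odd (K : Type*) [Field K] [Fintype K] [CharP K p] {d q : ℕ} (hF : Fintype.card K = q ^ 2) (hd : 5 ≤ d)
    (ho : Odd d) : BigL p (Cfsg.PSU d K q) := by
  have hq : 2 ≤ q := by
    have h1 : 2 ≤ Fintype.card K := Fintype.one_lt_card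
    by_contra h5
    have h7 : q ^ 2 ≤ 1 := by
      calc q ^ 2 ≤ 1 ^ 2 := Nat.pow_le_pow_left (by omega) 2
        _ = 1 := by norm_num
    omega
  obtain ⟨m, rfl⟩ := ho
  refine ⟨m, _, by omega, (filtQ_PSU_odd hF (by omega)).filtC fun i => ?_⟩
  have h4 : 4 ≤ q ^ 2 := by
    calc 4 = 2 ^ 2 := by norm_num
      _ ≤ q ^ 2 := Nat.pow_le_pow_left hq 2
  have h8 : 8 ≤ q ^ 3 := by
    calc 8 = 2 ^ 3 := by norm_num
      _ ≤ q ^ 3 := Nat.pow_le_pow_left hq 3
  split_ifs <;> omega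

theorem bigL_POdd (K : Type*) [Field K] [Fintype K] [CharP K p] {d : ℕ} (hd : 2 ≤ d) (hK : Odd (Fintype.card K)) :
    BigL p (Cfsg.POmega K (Cfsg.quadFormOdd d K)) := by
  have h3 : 3 ≤ Fintype.card K := by
    have h1 : 2 ≤ Fintype.card K := Fintype.one_lt_card
    obtain ⟨k, hk⟩ := hK
    omega
  have h2 : (2 : K) ≠ 0 := by
    intro h2
    have h3 : CharP K 2 := CharTwo.of_one_ne_zero_of_two_eq_zero one_ne_zero h2
    have h4 : 2 ∣ Fintype.card K := by
      obtain ⟨n, -, hn⟩ := FiniteField.card K 2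
      rw [hn]
      exact dvd_pow_self 2 n.pos.ne'
    obtain ⟨k, hk⟩ := hK
    omega
  exact ⟨d, _, hd, (filtC_PO_odd h2 hd).mono (by rwa [Nat.card_eq_fintype_card])⟩

theorem bigL_PPlus (K : Type*) [Field K] [Fintype K] [CharP K p] {d : ℕ} (hd : 3 ≤ d) (hK : 3 ≤ Fintype.card K) :
    BigL p (Cfsg.POmega K (Cfsg.quadFormPlus d K)) := by
  obtain ⟨n, rfl⟩ : ∃ n, d = n + 3 := ⟨d - 3, by omega⟩
  exact ⟨_, _, by omega, (filtC_PO_plus n).mono (by rwa [Nat.card_eq_fintype_card])⟩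

theorem bigL_PMinus (K : Type*) [Field K] [Fintype K] [CharP K p] {d : ℕ} {a b : K}
    (hab : ∀ z₁ z₂ : K, z₁ ^ 2 + a * z₁ * z₂ + b * z₂ ^ 2 = 0 → z₁ = 0 ∧ z₂ = 0) (hd : 2 ≤ d)
    (hK : 3 ≤ Fintype.card K) : BigL p (Cfsg.POmega K (Cfsg.quadFormMinus d K a b)) :=
  ⟨d, _, hd, (filtC_PO_minus a b hab hd).mono (by rwa [Nat.card_eq_fintype_card])⟩

end Families

section Exceptional

open Cfsg.Lie Cfsg.Agent.ChevalleyStructure Cfsg.Agent.ChevalleyStructure.CoxeterGeomTypes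
  Cfsg.Agent.Nodes.RGDChev

theorem bigL_group {D : ChevalleyDatum} {l : ℕ} {M : CoxeterMatrix (Fin l)} (hp : IsType D l M) (hl : 2 ≤ l)
    (K : Type*) [Field K] [Fintype K] (p : ℕ) [CharP K p] (hK : 3 ≤ Fintype.card K) : BigL p ↥(D.group K) :=
  ⟨l, M, hl, (filtC_group hp K p).mono (by rwa [Nat.card_eq_fintype_card])⟩

theorem bigL_G2 (K : Type*) [Field K] [Fintype K] (p : ℕ) [CharP K p] (hK : 3 ≤ Fintype.card K) :
    BigL p ↥(chevG2.group K) :=
  bigL_group (l := 2) (M := CoxeterMatrix.G₂) (by simp [IsType, typeList]) (by norm_num) K p hK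

theorem bigL_B2 (K : Type*) [Field K] [Fintype K] (p : ℕ) [CharP K p] (hK : 3 ≤ Fintype.card K) :
    BigL p ↥(chevB2.group K) :=
  bigL_group (l := 2) (M := CoxeterMatrix.B 2) (by simp [IsType, typeList]) (by norm_num) K p hK

theorem bigL_F4 (K : Type*) [Field K] [Fintype K] (p : ℕ) [CharP K p] (hK : 3 ≤ Fintype.card K) :
    BigL p ↥(chevF4.group K) :=
  bigL_group (l := 4) (M := CoxeterMatrix.F₄) (by simp [IsType, typeList]) (by norm_num) K p hK

theorem bigL_E6 (K : Type*) [Field K] [Fintype K] (p : ℕ) [CharP K p] (hK : 3 ≤ Fintype.card K) :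
    BigL p ↥(chevE6.group K) :=
  bigL_group (l := 6) (M := CoxeterMatrix.E₆) (by simp [IsType, typeList]) (by norm_num) K p hK

theorem bigL_E7 (K : Type*) [Field K] [Fintype K] (p : ℕ) [CharP K p] (hK : 3 ≤ Fintype.card K) :
    BigL p ↥(chevE7.group K) :=
  bigL_group (l := 7) (M := CoxeterMatrix.E₇) (by simp [IsType, typeList]) (by norm_num) K p hK

theorem bigL_E8 (K : Type*) [Field K] [Fintype K] (p : ℕ) [CharP K p] (hK : 3 ≤ Fintype.card K) :
    BigL p ↥(chevE8.group K) :=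
  bigL_group (l := 8) (M := CoxeterMatrix.E₈) (by simp [IsType, typeList]) (by norm_num) K p hK

theorem bigL_2E6 (K : Type*) [Field K] [Fintype K] {q : ℕ} (hq : IsPrimePow q) (hK : Fintype.card K = q ^ 2) (p : ℕ)
    [CharP K p] (h3 : 3 ≤ q) : BigL p ↥(twistedE6 K q) :=
  ⟨4, _, by norm_num, (filtC_twE6 hq hK p).mono h3⟩

theorem bigL_3D4 (K : Type) [Field K] [Fintype K] {q : ℕ} (hq : IsPrimePow q) (hK : Fintype.card K = q ^ 3) (p : ℕ)
    [CharP K p] (h3 : 3 ≤ q) : BigL p ↥(twistedD4 K q) :=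
  ⟨2, _, le_rfl, (filtC_twD4 hq hK p).mono h3⟩

end Exceptional

/-! ### the situation `Big` -/

section Big

variable {Q : Type} [Group Q] [Finite Q] {A : Subgroup Q} {Γ : Subgroup (MulAut Q)} {ι : Type} [Fintype ι]
  [DecidableEq ι] {F : Type} [Field F] [Fintype F] {S P : Subgroup (GL ι F)}

theorem BigL.kill_big {L : Type} [Group L] (hb : BigL (ringChar F) L) (b : Big A Γ S P)
    (e : Nonempty (socle P ≃* L)) : False := by
  obtain ⟨l, M, hl, hF⟩ := hb
  obtain ⟨e⟩ := e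
  exact own_big b hl e hF

variable {K : Type} [Field K] [Fintype K] (hc : ringChar F = ringChar K)

include hc

theorem own_PSL (b : Big A Γ S P) {d : ℕ} (hd : 3 ≤ d) (hK : 3 ≤ Fintype.card K)
    (e : Nonempty (socle P ≃* Matrix.ProjectiveSpecialLinearGroup (Fin d) K)) : False := by
  have : Fact (ringChar K).Prime := ⟨CharP.char_is_prime K _⟩
  exact (hc ▸ bigL_PSL K hd hK : BigL (ringChar F) _).kill_big b e

theorem own_PSp (b : Big A Γ S P) {d : ℕ} (hd : 2 ≤ d) (hK : 3 ≤ Fintype.card K)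
    (e : Nonempty (socle P ≃* Cfsg.PSp d K)) : False := by
  have : Fact (ringChar K).Prime := ⟨CharP.char_is_prime K _⟩
  exact (hc ▸ bigL_PSp K hd hK : BigL (ringChar F) _).kill_big b e

theorem own_PSU (b : Big A Γ S P) {d q : ℕ} (hF : Fintype.card K = q ^ 2) (hd : 4 ≤ d) (hq : 3 ≤ q)
    (e : Nonempty (socle P ≃* Cfsg.PSU d K q)) : False := by
  have : Fact (ringChar K).Prime := ⟨CharP.char_is_prime K _⟩
  exact (hc ▸ bigL_PSU K hF hd hq : BigL (ringChar F) _).kill_big b e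

theorem own_PSU_odd (b : Big A Γ S P) {d q : ℕ} (hF : Fintype.card K = q ^ 2) (hd : 5 ≤ d) (ho : Odd d)
    (e : Nonempty (socle P ≃* Cfsg.PSU d K q)) : False := by
  have : Fact (ringChar K).Prime := ⟨CharP.char_is_prime K _⟩
  exact (hc ▸ bigL_PSU_odd K hF hd ho : BigL (ringChar F) _).kill_big b e

theorem own_POdd (b : Big A Γ S P) {d : ℕ} (hd : 2 ≤ d) (hK : Odd (Fintype.card K))
    (e : Nonempty (socle P ≃* Cfsg.POmega K (Cfsg.quadFormOdd d K))) : False := by
  have : Fact (ringChar K).Prime := ⟨CharP.char_is_prime K _⟩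
  exact (hc ▸ bigL_POdd K hd hK : BigL (ringChar F) _).kill_big b e

theorem own_PPlus (b : Big A Γ S P) {d : ℕ} (hd : 3 ≤ d) (hK : 3 ≤ Fintype.card K)
    (e : Nonempty (socle P ≃* Cfsg.POmega K (Cfsg.quadFormPlus d K))) : False := by
  have : Fact (ringChar K).Prime := ⟨CharP.char_is_prime K _⟩
  exact (hc ▸ bigL_PPlus K hd hK : BigL (ringChar F) _).kill_big b e

theorem own_PMinus (b : Big A Γ S P) {d : ℕ} {x y : K}
    (hxy : ∀ z₁ z₂ : K, z₁ ^ 2 + x * z₁ * z₂ + y * z₂ ^ 2 = 0 → z₁ = 0 ∧ z₂ = 0) (hd : 2 ≤ d)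
    (hK : 3 ≤ Fintype.card K) (e : Nonempty (socle P ≃* Cfsg.POmega K (Cfsg.quadFormMinus d K x y))) : False := by
  have : Fact (ringChar K).Prime := ⟨CharP.char_is_prime K _⟩
  exact (hc ▸ bigL_PMinus K hxy hd hK : BigL (ringChar F) _).kill_big b e

end Big

/-! ### the exceptional groups, in the situation `Big` -/

section BigExc

open Cfsg.Lie

variable {Q : Type} [Group Q] [Finite Q] {A : Subgroup Q} {Γ : Subgroup (MulAut Q)} {ι : Type} [Fintype ι]
  [DecidableEq ι] {F : Type} [Field F] [Fintype F] {S P : Subgroup (GL ι F)}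
  {K : Type} [Field K] [Fintype K] (hc : ringChar F = ringChar K)

include hc

theorem own_G2 (b : Big A Γ S P) (hK : 3 ≤ Fintype.card K) (e : Nonempty (socle P ≃* ↥(chevG2.group K))) : False :=
  (hc ▸ bigL_G2 K (ringChar K) hK : BigL (ringChar F) _).kill_big b e

theorem own_F4 (b : Big A Γ S P) (hK : 3 ≤ Fintype.card K) (e : Nonempty (socle P ≃* ↥(chevF4.group K))) : False :=
  (hc ▸ bigL_F4 K (ringChar K) hK : BigL (ringChar F) _).kill_big b e

theorem own_E6 (b : Big A Γ S P) (hK : 3 ≤ Fintype.card K) (e : Nonempty (socle P ≃* ↥(chevE6.group K))) : False :=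
  (hc ▸ bigL_E6 K (ringChar K) hK : BigL (ringChar F) _).kill_big b e

theorem own_E7 (b : Big A Γ S P) (hK : 3 ≤ Fintype.card K) (e : Nonempty (socle P ≃* ↥(chevE7.group K))) : False :=
  (hc ▸ bigL_E7 K (ringChar K) hK : BigL (ringChar F) _).kill_big b e

theorem own_E8 (b : Big A Γ S P) (hK : 3 ≤ Fintype.card K) (e : Nonempty (socle P ≃* ↥(chevE8.group K))) : False :=
  (hc ▸ bigL_E8 K (ringChar K) hK : BigL (ringChar F) _).kill_big b e

theorem own_2E6 (b : Big A Γ S P) {q : ℕ} (hq : IsPrimePow q) (hK : Fintype.card K = q ^ 2) (h3 : 3 ≤ q)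
    (e : Nonempty (socle P ≃* ↥(twistedE6 K q))) : False :=
  (hc ▸ bigL_2E6 K hq hK (ringChar K) h3 : BigL (ringChar F) _).kill_big b e

theorem own_3D4 (b : Big A Γ S P) {q : ℕ} (hq : IsPrimePow q) (hK : Fintype.card K = q ^ 3) (h3 : 3 ≤ q)
    (e : Nonempty (socle P ≃* ↥(twistedD4 K q))) : False :=
  (hc ▸ bigL_3D4 K hq hK (ringChar K) h3 : BigL (ringChar F) _).kill_big b e

end BigExc

/-! ### what remains of the targets -/

/-- `OwnPSL` from `d = 2` and from `card K = 2`, `3 ≤ d` -/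
theorem ownPSL_of
    (h2 : ∀ {Q : Type} [Group Q] [Finite Q] {A : Subgroup Q} {Γ : Subgroup (MulAut Q)} {ι : Type} [Fintype ι]
      [DecidableEq ι] {F : Type} [Field F] [Fintype F] {S P : Subgroup (GL ι F)}, Big A Γ S P →
      ∀ (K : Type) [Field K] [Fintype K], 4 ≤ Fintype.card K → ringChar F = ringChar K →
      Nonempty (socle P ≃* Matrix.ProjectiveSpecialLinearGroup (Fin 2) K) → False)
    (hq : ∀ {Q : Type} [Group Q] [Finite Q] {A : Subgroup Q} {Γ : Subgroup (MulAut Q)} {ι : Type} [Fintype ι]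
      [DecidableEq ι] {F : Type} [Field F] [Fintype F] {S P : Subgroup (GL ι F)}, Big A Γ S P →
      ∀ (K : Type) [Field K] [Fintype K] (d : ℕ), 3 ≤ d → Fintype.card K = 2 → ringChar F = ringChar K →
      Nonempty (socle P ≃* Matrix.ProjectiveSpecialLinearGroup (Fin d) K) → False) : OwnPSL := by
  intro Q _ _ A Γ ι _ _ F _ _ S P b K _ _ d hd h4 hc e
  rcases Nat.lt_or_ge d 3 with h3 | h3
  · obtain rfl : d = 2 := by omega
    exact h2 b K (h4 rfl) hc e
  · have h1 : 2 ≤ Fintype.card K := Fintype.one_lt_card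
    rcases Nat.lt_or_ge (Fintype.card K) 3 with h5 | h5
    · exact hq b K d h3 (by omega) hc e
    · exact own_PSL hc b h3 h5 e

/-- `OwnPSp` from `card K = 2`, `3 ≤ d` -/
theorem ownPSp_of
    (hq : ∀ {Q : Type} [Group Q] [Finite Q] {A : Subgroup Q} {Γ : Subgroup (MulAut Q)} {ι : Type} [Fintype ι]
      [DecidableEq ι] {F : Type} [Field F] [Fintype F] {S P : Subgroup (GL ι F)}, Big A Γ S P →
      ∀ (K : Type) [Field K] [Fintype K] (d : ℕ), 3 ≤ d → Fintype.card K = 2 → ringChar F = ringChar K →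
      Nonempty (socle P ≃* Cfsg.PSp d K) → False) : OwnPSp := by
  intro Q _ _ A Γ ι _ _ F _ _ S P b K _ _ d hd h4 hc e
  have h1 : 2 ≤ Fintype.card K := Fintype.one_lt_card
  rcases Nat.lt_or_ge (Fintype.card K) 3 with h5 | h5
  · refine hq b K d ?_ (by omega) hc e
    by_contra h6
    have := h4 (by omega)
    omega
  · exact own_PSp hc b hd h5 e

/-- `OwnPSU` from `d = 3` and from `q = 2`, `d` even -/
theorem ownPSU_of
    (h3 : ∀ {Q : Type} [Group Q] [Finite Q] {A : Subgroup Q} {Γ : Subgroup (MulAut Q)} {ι : Type} [Fintype ι]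
      [DecidableEq ι] {F : Type} [Field F] [Fintype F] {S P : Subgroup (GL ι F)}, Big A Γ S P →
      ∀ (K : Type) [Field K] [Fintype K] (q : ℕ), Fintype.card K = q ^ 2 → 3 ≤ q → ringChar F = ringChar K →
      Nonempty (socle P ≃* Cfsg.PSU 3 K q) → False)
    (hq : ∀ {Q : Type} [Group Q] [Finite Q] {A : Subgroup Q} {Γ : Subgroup (MulAut Q)} {ι : Type} [Fintype ι]
      [DecidableEq ι] {F : Type} [Field F] [Fintype F] {S P : Subgroup (GL ι F)}, Big A Γ S P →
      ∀ (K : Type) [Field K] [Fintype K] (d : ℕ), Fintype.card K = 4 → 4 ≤ d → Even d → ringChar F = ringChar K →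
      Nonempty (socle P ≃* Cfsg.PSU d K 2) → False) : OwnPSU := by
  intro Q _ _ A Γ ι _ _ F _ _ S P b K _ _ d q hF hd h4 hc e
  have h1 : 2 ≤ Fintype.card K := Fintype.one_lt_card
  have hq2 : 2 ≤ q := by
    by_contra h5
    have h6 : q ≤ 1 := by omega
    have h7 : q ^ 2 ≤ 1 := by
      calc q ^ 2 ≤ 1 ^ 2 := Nat.pow_le_pow_left h6 2
        _ = 1 := by norm_num
    omega
  rcases Nat.lt_or_ge q 3 with h5 | h5
  · obtain rfl : q = 2 := by omega
    have hd4 : 4 ≤ d := by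
      by_contra h6
      exact h4 ⟨by omega, rfl⟩
    rcases Nat.even_or_odd d with hev | hod
    · exact hq b K d (by rw [hF]; norm_num) hd4 hev hc e
    · refine own_PSU_odd hc b hF ?_ hod e
      obtain ⟨k, hk⟩ := hod
      omega
  · rcases Nat.lt_or_ge d 4 with h6 | h6
    · obtain rfl : d = 3 := by omega
      exact h3 b K q hF h5 hc e
    · exact own_PSU hc b hF h6 h5 e

/-- `OwnPOmega` from `card K = 2`, plus and minus type -/
theorem ownPOmega_of
    (hp : ∀ {Q : Type} [Group Q] [Finite Q] {A : Subgroup Q} {Γ : Subgroup (MulAut Q)} {ι : Type} [Fintype ι]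
      [DecidableEq ι] {F : Type} [Field F] [Fintype F] {S P : Subgroup (GL ι F)}, Big A Γ S P →
      ∀ (K : Type) [Field K] [Fintype K] (d : ℕ), 4 ≤ d → Fintype.card K = 2 → ringChar F = ringChar K →
      Nonempty (socle P ≃* Cfsg.POmega K (Cfsg.quadFormPlus d K)) → False)
    (hm : ∀ {Q : Type} [Group Q] [Finite Q] {A : Subgroup Q} {Γ : Subgroup (MulAut Q)} {ι : Type} [Fintype ι]
      [DecidableEq ι] {F : Type} [Field F] [Fintype F] {S P : Subgroup (GL ι F)}, Big A Γ S P →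
      ∀ (K : Type) [Field K] [Fintype K] (d : ℕ) (x y : K), 4 ≤ d → Fintype.card K = 2 → ringChar F = ringChar K →
      (∀ z₁ z₂ : K, z₁ ^ 2 + x * z₁ * z₂ + y * z₂ ^ 2 = 0 → z₁ = 0 ∧ z₂ = 0) →
      Nonempty (socle P ≃* Cfsg.POmega K (Cfsg.quadFormMinus (d - 1) K x y)) → False) : OwnPOmega := by
  intro Q _ _ A Γ ι _ _ F _ _ S P b K _ _ d hc h
  have h1 : 2 ≤ Fintype.card K := Fintype.one_lt_card
  rcases h with ⟨hd, ho, e⟩ | ⟨hd, e⟩ | ⟨x, y, hd, hxy, e⟩
  · exact own_POdd hc b (by omega) ho e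
  · rcases Nat.lt_or_ge (Fintype.card K) 3 with h5 | h5
    · exact hp b K d hd (by omega) hc e
    · exact own_PPlus hc b (by omega) h5 e
  · rcases Nat.lt_or_ge (Fintype.card K) 3 with h5 | h5
    · exact hm b K d x y hd (by omega) hc hxy e
    · exact own_PMinus hc b hxy (by omega) h5 e

end Cfsg.Agent.H284.Own
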