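import Cfsg.Agent.H284.EPO.W3
import Cfsg.Agent.H737.EPO.Q2Of
import Cfsg.Agent.H869.EPO.GeoRGD
import Cfsg.Agent.H742.EX.Q2Grp
import Cfsg.Agent.H965.XZ.PanPlus
import Cfsg.Agent.H353.PanO
import Cfsg.Agent.KFacts.RgdFiltClass

/-!
# S5745 / S3499, own characteristic, `q = 2` : the socles `PΩ^±_{2m}(2) ^ k` (helper284)

* `idx_D`, `idx_D4`, `idx_minus` : `|S : P_{I - i}| + 1 ≤ 2 ^ (2 m)` for the nodes `i` which survive `TThree.surv_D`,
  `TThree.surv_minus`;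
* `plus_core`, `minus_core` : the state `Q2` (helper737) is impossible: `|G : H| ≤ n (n + 1)` (helper869) and the orders
  (helper742);
* `dead_plus`, `dead_minus` : the rows of `OwnQ2` (helper542).
-/

set_option autoImplicit false
set_option linter.unusedSectionVars false

namespace Cfsg.Agent.H284.Q2Om

open CoxeterSystem Cfsg.Agent.ChevalleyStructure.CoxeterGeom Cfsg.Agent.Tits.Roots Cfsg.Agent.Tits.Core
  Cfsg.Agent.Tits.RootComb Cfsg.Agent.Tits.Exchange Cfsg.Agent.Nodes.Comb Cfsg.Agent.Nodes.Reps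
  Cfsg.Agent.Nodes.BNOf Cfsg.Agent.Nodes.StabComb Cfsg.Agent.Nodes.Bruhat Cfsg.Agent.Nodes.OppDec
  Cfsg.Agent.Nodes.LeviDec Cfsg.Agent.Nodes.NormalForm Cfsg.Agent.ChevalleyStructure.WeylAbstract
  Cfsg.Agent.H35.Poin Cfsg.Agent.H965.XZ Cfsg.Agent.H284.TThree

theorem gs_two (n : ℕ) : gs 2 n + 1 = 2 ^ n := by
  unfold gs
  have := Nat.geomSum_eq (le_refl 2) n
  rw [this]
  simp only [Nat.add_one_sub_one, Nat.div_one]
  exact Nat.sub_add_cancel Nat.one_le_two_pow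

theorem gs_one (y : ℕ) : gs y (0 + 1) = 1 := by simp [gs]

section D

variable {k : ℕ} {W Y : Type*} [Group W] [Finite W] [Group Y] [Finite Y] {p : ℕ}
    {A : Fin (k + 2) → Fin (k + 2) → ℤ} {T : Subgroup Y} {n : Fin (k + 2) → Y} {X : (Fin (k + 2) → ℤ) → Subgroup Y}
    {i : Fin (k + 2)} {cs : CoxeterSystem (Cfsg.Agent.Nodes.TypeD.M k) W}
    {h : IsCartan (Cfsg.Agent.Nodes.TypeD.M k) A} (R : RGD cs h p T n X) (hG : GG cs h T X = ⊤)
    (hq : ∀ j, Nat.card (X (sr j)) = 2)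

include R hG hq

theorem idx_D (hk : 1 ≤ k) (hi : (i : ℕ) = 0) : (PJ cs h T X {i}ᶜ).index + 1 ≤ 2 ^ (2 * (k + 2)) := by
  have h1 := index_D R hG hq (a := 1) le_rfl hk
  have e : ({i}ᶜ : Set (Fin (k + 2))) = {j : Fin _ | (j : ℕ) + 1 ≠ 1} := by
    ext j
    rw [Set.mem_compl_iff, Set.mem_singleton_iff, Set.mem_ofPred_eq, Fin.ext_iff, hi]
    omega
  rw [e]
  rw [Finset.prod_range_one, Finset.prod_range_one, gs_one, mul_one] at h1
  have e2 : k + 2 - 1 + 0 + 1 = k + 2 := by omega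
  have e3 : k + 2 - 1 + 0 = k + 1 := by omega
  rw [e2, e3] at h1
  rw [h1]
  have h2 := gs_two (k + 2)
  have h3 : (1 : ℕ) ≤ 2 ^ (k + 1) := Nat.one_le_two_pow
  have h4 : 2 ^ (2 * (k + 2)) = 2 ^ (k + 2) * 2 ^ (k + 2) := by rw [two_mul, pow_add]
  have h5 : 2 ^ (k + 2) = 2 * 2 ^ (k + 1) := by rw [pow_succ' 2 (k + 1)]
  rw [h4, ← h2]
  obtain ⟨g, hg⟩ : ∃ g, gs 2 (k + 2) = g := ⟨_, rfl⟩
  obtain ⟨x, hx⟩ : ∃ x, 2 ^ (k + 1) = x := ⟨_, rfl⟩
  rw [h5, hx, hg] at h2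
  rw [hx] at h3
  rw [hg, hx]
  nlinarith

theorem idx_D4 (hk : k = 2) (hi : (i : ℕ) ≠ 1) : (PJ cs h T X {i}ᶜ).index + 1 ≤ 2 ^ (2 * (k + 2)) := by
  rcases (by have := i.2; omega : (i : ℕ) = 0 ∨ (i : ℕ) = k ∨ (i : ℕ) = k + 1) with h1 | h1 | h1
  · exact idx_D R hG hq (by omega) h1
  · have e : ({i}ᶜ : Set (Fin (k + 2))) = {j : Fin _ | (j : ℕ) ≠ k} := by
      ext j
      rw [Set.mem_compl_iff, Set.mem_singleton_iff, Set.mem_ofPred_eq, Fin.ext_iff, h1]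
    rw [e, index_spin' R hG hq]
    subst hk
    decide
  · have e : ({i}ᶜ : Set (Fin (k + 2))) = {j : Fin _ | (j : ℕ) + 1 ≠ k + 2} := by
      ext j
      rw [Set.mem_compl_iff, Set.mem_singleton_iff, Set.mem_ofPred_eq, Fin.ext_iff, h1]
      omega
    rw [e, index_spin R hG hq]
    subst hk
    decide

end D

section B

variable {m : ℕ} {W Y : Type*} [Group W] [Finite W] [Group Y] [Finite Y] {p : ℕ} {A : Fin m → Fin m → ℤ}
  {T : Subgroup Y} {n : Fin m → Y} {X : (Fin m → ℤ) → Subgroup Y} {i : Fin m}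
  {cs : CoxeterSystem (CoxeterMatrix.B m) W} {h : IsCartan (CoxeterMatrix.B m) A} (R : RGD cs h p T n X)
  (hG : GG cs h T X = ⊤)

include R hG

theorem idx_minus (hq : ∀ j, Nat.card (X (sr j)) = if (j : ℕ) + 1 < m then 2 else 4) (hi : (i : ℕ) = 0) :
    (PJ cs h T X {i}ᶜ).index + 1 ≤ 2 ^ (2 * (m + 1)) := by
  have hm := i.2
  have h1 := index_B R hG (y := 2) (z := 4) (fun j hj => by rw [hq, if_pos hj])
    (fun j hj => by rw [hq, if_neg (by omega)]) (a := 1) le_rfl (by omega)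
  have e : ({i}ᶜ : Set (Fin m)) = {j : Fin _ | (j : ℕ) + 1 ≠ 1} := by
    ext j
    rw [Set.mem_compl_iff, Set.mem_singleton_iff, Set.mem_ofPred_eq, Fin.ext_iff, hi]
    omega
  rw [e]
  obtain ⟨l, rfl⟩ : ∃ l, m = l + 1 := ⟨m - 1, by omega⟩
  rw [Finset.prod_range_one, Finset.prod_range_one, gs_one, mul_one] at h1
  have e2 : l + 1 - 1 + 0 + 1 = l + 1 := by omega
  have e3 : l + 1 - 1 + 0 = l := by omega
  rw [e2, e3] at h1
  rw [h1]
  have h2 := gs_two (l + 1)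
  have h3 : (1 : ℕ) ≤ 2 ^ l := Nat.one_le_two_pow
  have h4 : 2 ^ (2 * (l + 1 + 1)) = 16 * (2 ^ l * 2 ^ l) := by
    rw [show 2 * (l + 1 + 1) = 4 + (l + l) by ring, pow_add, pow_add]
    norm_num
  have h5 : 2 ^ (l + 1) = 2 * 2 ^ l := by rw [pow_succ' 2 l]
  rw [h4]
  obtain ⟨g, hg⟩ : ∃ g, gs 2 (l + 1) = g := ⟨_, rfl⟩
  obtain ⟨x, hx⟩ : ∃ x, 2 ^ l = x := ⟨_, rfl⟩
  rw [h5, hx, hg] at h2
  rw [hx] at h3
  rw [hg, hx]
  have h6 : g = 2 * x - 1 := by omega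
  have h7 : g ≤ 2 * x := by omega
  calc g * (1 + x * 4) + 1 ≤ g * (1 + x * 4) + (1 + x * 4) := by omega
    _ = (g + 1) * (1 + x * 4) := by ring
    _ = 2 * x * (1 + x * 4) := by rw [h2]
    _ ≤ 16 * (x * x) := by nlinarith

end B

section core

open Cfsg.Agent.H284 Cfsg.Agent.H209.EPX Cfsg.Agent.H737.EPO Cfsg.Agent.H869.EPO Cfsg.Agent.H742.EX.Q2
open Cfsg.Agent.KFacts.RgdSL Cfsg.Agent.KFacts.RgdCharP

variable {G : Type*} [Group G] [Finite G] {F : Fam} {f : ℕ} (hok : okF F f = true) (hord : IsOrd F f G)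
  {K : Type} [Field K] [Fintype K] (hK : Fintype.card K = 2) [Fact (Nat.Prime 2)]

include hok hord hK

/-- `PΩ⁺_{2(k+2)}(2)` -/
theorem plus_core {k : ℕ} (hk : 2 ≤ k) {Y : Type} [Group Y] [Finite Y] [IsSimpleGroup Y]
    (hY : ∃ a b : Y, a * b ≠ b * a) (g : Y ≃* POmega K (quadFormPlus (k + 2) K))
    {W : Type*} [Group W] [Finite W] {A : Fin (k + 2) → Fin (k + 2) → ℤ} {T : Subgroup Y} {n : Fin (k + 2) → Y}
    {X : (Fin (k + 2) → ℤ) → Subgroup Y} {cs : CoxeterSystem (Cfsg.Agent.Nodes.TypeD.M k) W}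
    {h : IsCartan (Cfsg.Agent.Nodes.TypeD.M k) A} (R : RGD cs h 2 T n X) (hBT : BT cs h 2 T X)
    (hG : GG cs h T X = ⊤) (hX : RGD.Sup X {x | IsRoot cs h x} = ⊤) (hconn : Conn (Cfsg.Agent.Nodes.TypeD.M k))
    (hq : ∀ j, Nat.card (X (sr j)) = 2) {H N R' : Subgroup G} {e e' : N ≃* (Fin 1 → Y)} (hE : EPS H N e)
    {i : Fin (k + 2)} {t : G} (q : Q2 H R' e' (ofRGD R hBT hG hX hconn) i t) (hres : Res cs h T X i) : False := by
  have hne : ({i} : Set (Fin (k + 2))) ≠ Set.univ := by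
    intro h1
    have h2 := ne_univ2 (m := k + 2) (by omega) i i
    rw [Set.pair_eq_singleton] at h2
    exact h2 h1
  obtain ⟨hW, hidx⟩ : W3 cs i ∧ (PJ cs h T X {i}ᶜ).index + 1 ≤ 2 ^ (2 * (k + 2)) := by
    rcases surv_D R hk hq hres with h1 | ⟨h1, h2⟩
    · exact ⟨w3_D h (by omega) h1, idx_D R hG hq (by omega) h1⟩
    · refine ⟨?_, idx_D4 R hG hq h1 h2⟩
      subst h1
      exact w3_D4 h h2
  exact dead_op hok hord hE hK (by omega) g hidx (index_le_of R hBT hG hX hconn hY q hne hW)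

/-- `PΩ⁻_{2(m+1)}(2)` -/
theorem minus_core {m : ℕ} (hm : 3 ≤ m) {Y : Type} [Group Y] [Finite Y] [IsSimpleGroup Y]
    (hY : ∃ a b : Y, a * b ≠ b * a) {a b : K}
    (hab : ∀ z₁ z₂ : K, z₁ ^ 2 + a * z₁ * z₂ + b * z₂ ^ 2 = 0 → z₁ = 0 ∧ z₂ = 0)
    (g : Y ≃* POmega K (quadFormMinus m K a b))
    {W : Type*} [Group W] [Finite W] {A : Fin m → Fin m → ℤ} {T : Subgroup Y} {n : Fin m → Y}
    {X : (Fin m → ℤ) → Subgroup Y} {cs : CoxeterSystem (CoxeterMatrix.B m) W}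
    {h : IsCartan (CoxeterMatrix.B m) A} (R : RGD cs h 2 T n X) (hBT : BT cs h 2 T X)
    (hG : GG cs h T X = ⊤) (hX : RGD.Sup X {x | IsRoot cs h x} = ⊤) (hconn : Conn (CoxeterMatrix.B m))
    (hq : ∀ j, Nat.card (X (sr j)) = if (j : ℕ) + 1 < m then 2 else 4) {H N R' : Subgroup G}
    {e e' : N ≃* (Fin 1 → Y)} (hE : EPS H N e)
    {i : Fin m} {t : G} (q : Q2 H R' e' (ofRGD R hBT hG hX hconn) i t) (hi2 : Nat.card (X (sr i)) = 2)
    (hres : Res cs h T X i) : False := by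
  have hne : ({i} : Set (Fin m)) ≠ Set.univ := by
    intro h1
    have h2 := ne_univ2 (m := m) (by omega) i i
    rw [Set.pair_eq_singleton] at h2
    exact h2 h1
  have h1 := surv_minus R hm hq hi2 hres
  have hidx := idx_minus R hG hq h1
  exact dead_om hok hord hE hK (d := m + 1) (by omega) hab g hidx
    (index_le_of R hBT hG hX hconn hY q hne (w3_B h (by omega) h1))

end core

/-! ### The rows -/

section rows

open Cfsg.Agent.H284 Cfsg.Agent.H209.EPX Cfsg.Agent.H737.EPO Cfsg.Agent.H742.EX.Q2 Cfsg.Agent.KFacts.RgdFilt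
  Cfsg.Agent.KFacts.RgdFiltClass

theorem charP_two {K : Type} [Field K] [Fintype K] (hK : Fintype.card K = 2) : CharP K 2 := by
  have h1 := Nat.cast_card_eq_zero K
  rw [hK] at h1
  exact CharTwo.of_one_ne_zero_of_two_eq_zero one_ne_zero (by exact_mod_cast h1)

variable {G : Type} [Group G] [Finite G] [IsSimpleGroup G] (hGF : HasFilt 2 G) {F : Fam} {f : ℕ}
  (hok : okF F f = true) (hord : IsOrd F f G) {H N : Subgroup G} {T : Type} [Group T] {k : ℕ}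
  {e : N ≃* (Fin k → T)} (h : EPS H N e) {K : Type} [Field K] [Fintype K] (hK : Fintype.card K = 2)

include hGF hok hord h hK

/-- **no socle `PΩ⁺_{2m}(2) ^ k`** -/
theorem dead_plus {m : ℕ} (hm : 4 ≤ m) (g : T ≃* POmega K (quadFormPlus m K)) : False := by
  have h2 : Fact (Nat.Prime 2) := ⟨Nat.prime_two⟩
  have hc := charP_two hK
  have := h.simple
  obtain ⟨c, rfl⟩ : ∃ c, m = c + 3 := ⟨m - 3, by omega⟩
  have : Finite T := Finite.of_equiv _ g.symm.toEquiv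
  have hP := (pan_po_plus (F := K) c (p := 2)).of_equiv g.symm
  have hF := (hasFilt_PO_plus (F := K) c (p := 2)).of_equiv g.symm
  rw [Nat.card_eq_fintype_card, hK] at hP
  obtain ⟨rfl, A, hC, Tt, n, X, hW, _, R, hBT, hG, hX, hconn, e', R₀, i, t, q, hq, -, hres⟩ :=
    q2_pan (by omega) h hGF hP hF (Or.inl (by omega))
  exact plus_core hok hord hK (k := c + 1) (by omega) h.nab g R hBT hG hX hconn hq h q hres

/-- **no socle `PΩ⁻_{2m}(2) ^ k`** -/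
theorem dead_minus {m : ℕ} (hm : 4 ≤ m) {a b : K}
    (hab : ∀ z₁ z₂ : K, z₁ ^ 2 + a * z₁ * z₂ + b * z₂ ^ 2 = 0 → z₁ = 0 ∧ z₂ = 0)
    (g : T ≃* POmega K (quadFormMinus (m - 1) K a b)) : False := by
  have h2 : Fact (Nat.Prime 2) := ⟨Nat.prime_two⟩
  have hc := charP_two hK
  have := h.simple
  obtain ⟨c, hcm⟩ : ∃ c, m - 1 = c := ⟨_, rfl⟩
  rw [hcm] at g
  have : Finite T := Finite.of_equiv _ g.symm.toEquiv
  have hP := (Cfsg.Agent.H353.PanO.pan_po_minus (F := K) hab (m := c) (by omega) (p := 2)).of_equiv g.symm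
  have hF := (hasFilt_PO_minus (F := K) (m := c) a b hab (by omega) (p := 2)).of_equiv g.symm
  rw [Nat.card_eq_fintype_card, hK] at hP
  obtain ⟨rfl, A, hC, Tt, n, X, hW, _, R, hBT, hG, hX, hconn, e', R₀, i, t, q, hq, hi, hres⟩ :=
    q2_pan (by omega) h hGF hP hF (Or.inl (by omega))
  exact minus_core hok hord hK (m := c) (by omega) h.nab hab g R hBT hG hX hconn hq h q ((hq i).trans hi) hres

end rows

end Cfsg.Agent.H284.Q2Om
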